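import Groth.Prelude.Def_FSch3

/-!
# Isomorphisms of systems of thickenings are levelwise isomorphisms
-/

set_option autoImplicit false

universe u

namespace Groth.Agent.Fcompl.H556.SysIso

open AlgebraicGeometry CategoryTheory FSch

/-- A morphism of systems all of whose levels are isomorphisms is an isomorphism. -/
noncomputable def isoOfLevels {𝔛 𝔜 : Sys.{u}} (f : 𝔛 ⟶ 𝔜) (h : ∀ n, IsIso ((f : Hom 𝔛 𝔜).app n)) :
    𝔛 ≅ 𝔜 where
  hom := f
  inv := ⟨fun n => haveI := h n; inv ((f : Hom 𝔛 𝔜).app n), fun n => by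
    have := h n
    have := h (n + 1)
    rw [IsIso.inv_comp_eq, ← Category.assoc, IsIso.eq_comp_inv]
    exact ((f : Hom 𝔛 𝔜).comm n).symm⟩
  hom_inv_id := Hom.ext (funext fun n => by
    have := h n
    exact IsIso.hom_inv_id ((f : Hom 𝔛 𝔜).app n))
  inv_hom_id := Hom.ext (funext fun n => by
    have := h n
    exact IsIso.inv_hom_id ((f : Hom 𝔛 𝔜).app n))

end Groth.Agent.Fcompl.H556.SysIso
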